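import Mathlib

/-!
Closed systems of transvections over a finite field of odd order (McLaughlin's theorem): the combinatorial part.
-/

set_option autoImplicit false
set_option linter.unusedSectionVars false

namespace CA.McL

open Module Submodule

variable {k V : Type*} [Field k] [AddCommGroup V] [Module k V] {S : V → Dual k V → Prop}
  {u v w y z : V} {φ ψ χ ζ l : Dual k V} {c : k}

/-- a closed system of (centre, axis) pairs without isolated members -/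
structure Sys (S : V → Dual k V → Prop) : Prop where
  ne1 : ∀ {v φ}, S v φ → v ≠ 0
  ne2 : ∀ {v φ}, S v φ → φ ≠ 0
  zero : ∀ {v φ}, S v φ → φ v = 0
  smul1 : ∀ {v φ} {c : k}, S v φ → c ≠ 0 → S (c • v) φ
  smul2 : ∀ {v φ} {c : k}, S v φ → c ≠ 0 → S v (c • φ)
  cj : ∀ {u χ w ψ}, S u χ → S w ψ → ∀ c : k, S (w + (c * χ w) • u) (ψ - (c * ψ u) • χ)
  add1 : ∀ {v w φ}, S v φ → S w φ → v + w ≠ 0 → S (v + w) φ
  add2 : ∀ {v φ ψ}, S v φ → S v ψ → φ + ψ ≠ 0 → S v (φ + ψ)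
  ni : ∀ {v φ}, S v φ → ∃ u χ, S u χ ∧ φ u ≠ 0 ∧ χ v ≠ 0

/-- non-commuting members -/
def Adj (S : V → Dual k V → Prop) (x y : V × Dual k V) : Prop :=
  S x.1 x.2 ∧ S y.1 y.2 ∧ (x.2 y.1 ≠ 0 ∨ y.2 x.1 ≠ 0)

theorem Adj.symm {x y : V × Dual k V} (h : Adj S x y) : Adj S y x := ⟨h.2.1, h.1, h.2.2.symm⟩

/-- connectedness -/
def Conn (S : V → Dual k V → Prop) : Prop :=
  ∀ v φ w ψ, S v φ → S w ψ → Relation.ReflTransGen (Adj S) (v, φ) (w, ψ)

theorem Conn.ind (h : Conn S) {Z : V → Prop} (hv : S v φ) (h0 : Z v)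
    (h1 : ∀ w ψ w' ψ', S w ψ → S w' ψ' → (ψ w' ≠ 0 ∨ ψ' w ≠ 0) → Z w → Z w') (hw : S w ψ) : Z w := by
  have : ∀ x, Relation.ReflTransGen (Adj S) (v, φ) x → Z x.1 := fun x hx => by
    induction hx with
    | refl => exact h0
    | tail _ a ih => exact h1 _ _ _ _ a.1 a.2.1 a.2.2 ih
  exact this _ (h v φ w ψ hv hw)

/-- the span of the centres -/
def V1 (S : V → Dual k V → Prop) : Submodule k V := span k {v | ∃ φ, S v φ}

/-- the span of the axes -/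
def L1 (S : V → Dual k V → Prop) : Submodule k (Dual k V) := span k {φ | ∃ v, S v φ}

/-- the common kernel of the axes -/
def U1 (S : V → Dual k V → Prop) : Submodule k V where
  carrier := {x | ∀ v φ, S v φ → φ x = 0}
  add_mem' ha hb v φ h := by rw [map_add, ha v φ h, hb v φ h, add_zero]
  zero_mem' _ _ _ := map_zero _
  smul_mem' c x hx v φ h := by rw [map_smul, hx v φ h, smul_zero]

theorem mem_V1 (h : S v φ) : v ∈ V1 S := subset_span ⟨φ, h⟩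

theorem mem_L1 (h : S v φ) : φ ∈ L1 S := subset_span ⟨v, h⟩

theorem exists_avoid (h2 : (2 : k) ≠ 0) {a b : k} (h : a ≠ 0 ∨ b ≠ 0) : ∃ c : k, c ≠ 0 ∧ a + c * b ≠ 0 := by
  by_cases h1 : a + 1 * b = 0
  · refine ⟨-1, by simp, fun h3 => ?_⟩
    have ha : a = 0 := (mul_eq_zero.1 (show 2 * a = 0 by linear_combination h1 + h3)).resolve_left h2
    have hb : b = 0 := by linear_combination h1 - ha
    exact h.elim (fun k => k ha) fun k => k hb
  · exact ⟨1, one_ne_zero, h1⟩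

theorem nsm (a : k) (χ : Dual k V) : (-a) • χ = -(a • χ) := by ext; simp

theorem inj_of {A B : Type*} [AddCommGroup A] [Module k A] [AddCommGroup B] [Module k B] (f : A →ₗ[k] B)
    (h : ∀ x, f x = 0 → x = 0) : Function.Injective f := (injective_iff_map_eq_zero f).2 h

/-- the number of axes at `v` -/
noncomputable def na (S : V → Dual k V → Prop) (v : V) : ℕ := {φ | S v φ}.ncard

namespace Sys

variable (h : Sys S)
include h

theorem cjv (hu : S u χ) (hw : S w ψ) (h0 : χ w ≠ 0) (a : k) :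
    S (w + a • u) (ψ - (a / χ w * ψ u) • χ) := by
  have := h.cj hu hw (a / χ w); rwa [div_mul_cancel₀ _ h0] at this

theorem cjf (hu : S u χ) (hw : S w ψ) (h0 : ψ u ≠ 0) (a : k) : ∃ w', S w' (ψ + a • χ) := by
  have := h.cj hu hw (-a / ψ u)
  rw [div_mul_cancel₀ _ h0, nsm, sub_neg_eq_add] at this; exact ⟨_, this⟩

theorem comm (hv : S v φ) (hw : S w ψ) (h1 : φ w ≠ 0) (h2 : ψ v = 0) : S v ψ := by
  have h3 := h.cjv hv hw h1 1
  rw [h2, mul_zero, zero_smul, sub_zero, one_smul] at h3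
  have := h.add1 h3 (h.smul1 hw (c := -1) (by simp)) (by simpa using h.ne1 hv)
  simpa using this

variable [Finite V] [Finite k]

theorem na_le (hu : S u χ) (v : V) (c : k) : na S v ≤ na S (v + (c * χ v) • u) := by
  haveI : Finite (Dual k V) := DFunLike.finite _
  refine Set.ncard_le_ncard_of_injOn (fun φ => φ - (c * φ u) • χ) (fun φ hφ => h.cj hu hφ c)
    fun φ _ ψ _ e => ?_
  have e1 : φ u = ψ u := by simpa [h.zero hu] using LinearMap.congr_fun e u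
  simpa [e1] using e

theorem na_cj (hu : S u χ) (h0 : χ v ≠ 0) (a : k) : na S (v + a • u) = na S v := by
  refine le_antisymm ?_ ?_
  · have := h.na_le hu (v + a • u) (-a / χ v)
    rwa [map_add, map_smul, h.zero hu, smul_zero, add_zero, div_mul_cancel₀ _ h0, neg_smul,
      add_neg_cancel_right] at this
  · have := h.na_le hu v (a / χ v); rwa [div_mul_cancel₀ _ h0] at this

theorem na_op (hv : S v φ) (hw : S w ψ) (h1 : φ w ≠ 0) (h2 : ψ v ≠ 0) : na S v = na S w := by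
  rw [← h.na_cj hw h2 1, ← h.na_cj hv h1 1, one_smul, one_smul, add_comm]

theorem na_adj (hv : S v φ) (hw : S w ψ) (h1 : φ w ≠ 0) : na S v = na S w := by
  by_cases h2 : ψ v = 0
  swap
  · exact h.na_op hv hw h1 h2
  obtain ⟨z, ζ, hz, a, b⟩ := h.ni (h.comm hv hw h1 h2)
  rw [h.na_op (h.comm hv hw h1 h2) hz a b]
  by_cases h3 : ζ w = 0
  · have := h.cjv hv hw h1 1
    rw [h2, mul_zero, zero_smul, sub_zero] at this
    rw [← h.na_cj hv h1 1, h.na_op this hz a (by simpa [h3] using b)]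
  · exact (h.na_op hw hz a h3).symm

theorem na_eq (hc : Conn S) (hv : S v φ) (hw : S w ψ) : na S v = na S w :=
  hc.ind (Z := fun w => na S v = na S w) hv rfl (fun _ _ _ _ a b k e =>
    e.trans (k.elim (h.na_adj a b) fun k => (h.na_adj b a k).symm)) hw

theorem common (h2 : (2 : k) ≠ 0) (hc : Conn S) (hv : S v φ) (hw : S w ψ) :
    ∃ u χ, S u χ ∧ χ v ≠ 0 ∧ χ w ≠ 0 := by
  refine hc.ind (Z := fun w => ∃ u χ, S u χ ∧ χ v ≠ 0 ∧ χ w ≠ 0) hv ?_ ?_ hw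
  · obtain ⟨u, χ, a, -, b⟩ := h.ni hv; exact ⟨u, χ, a, b, b⟩
  rintro w ψ w' ψ' hw hw' k ⟨u, χ, hu, a, b⟩
  by_cases a1 : χ w' = 0
  swap
  · exact ⟨u, χ, hu, a, a1⟩
  have key : ∀ z ζ, S z ζ → χ z ≠ 0 → ζ w' ≠ 0 → ∃ u χ, S u χ ∧ χ v ≠ 0 ∧ χ w' ≠ 0 := fun z ζ hz b1 b2 => by
    obtain ⟨c, c0, hc⟩ := exists_avoid h2 (b := ζ v) (Or.inl a)
    obtain ⟨u', hu'⟩ := h.cjf hz hu b1 c
    exact ⟨u', _, hu', by simpa using hc, by simp [a1, c0, b2]⟩
  by_cases a2 : ψ w' = 0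
  swap
  · exact key w ψ hw b a2
  obtain ⟨z, ζ, hz, b1, b2⟩ := h.ni (h.comm hw' hw (k.resolve_left (not_not.2 a2)) a2)
  by_cases a3 : χ z = 0
  · exact key _ _ (h.cjv hw hz b1 1) (by simpa [a3] using b) (by simpa [a2] using b2)
  · exact key z ζ hz a3 b2

theorem exists_zero (hc : Conn S) (hv : S v φ) (hw : S w ψ) (h1 : φ w ≠ 0) (h2 : ψ v = 0) (hy : S y l) (z : V) :
    ∃ l', S y l' ∧ l' z = 0 := by
  haveI : Finite (Dual k V) := DFunLike.finite _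
  by_contra hn
  push Not at hn
  have e1 : na S y ≤ {c : k | c ≠ 0}.ncard := by
    refine Set.ncard_le_ncard_of_injOn (fun l => l z) (fun l hl => hn l hl) fun a ha b hb e => ?_
    by_contra k
    exact hn _ (h.add2 ha (h.smul2 hb (c := -1) (by simp)) (by simpa [nsm, ← sub_eq_add_neg, sub_eq_zero] using k))
      (by simpa [← sub_eq_add_neg, sub_eq_zero] using e)
  have e2 : ((fun c : k => c • φ) '' {c : k | c ≠ 0}).ncard < na S v := by
    refine Set.ncard_lt_ncard ⟨?_, fun k => ?_⟩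
    · rintro _ ⟨c, hc, rfl⟩; exact h.smul2 hv hc
    · obtain ⟨c, hc, e⟩ := k (h.comm hv hw h1 h2)
      have := LinearMap.congr_fun e w
      simp [h.zero hw, h1] at this
      exact hc this
  rw [Set.ncard_image_of_injective _ (smul_left_injective k (h.ne2 hv)), h.na_eq hc hv hy] at e2
  omega

/-- the linear case: every incident pair of a centre and an axis occurs -/
theorem lin (h2 : (2 : k) ≠ 0) (hc : Conn S) (hB : ∀ {y l}, S y l → ∀ z, ∃ l', S y l' ∧ l' z = 0)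
    (hy : S y φ) (hu : S u χ) (h0 : χ y = 0) : S y χ := by
  haveI : Finite (Dual k V) := DFunLike.finite _
  obtain ⟨y₁, l, hl, a1, a2⟩ := h.common h2 hc hu hy
  obtain ⟨b, b1, b2⟩ : ∃ b, S b l ∧ S b χ := by
    by_cases a3 : χ y₁ = 0
    · exact ⟨y₁, hl, h.comm hl hu a1 a3⟩
    obtain ⟨l', hl', a4⟩ := hB hl u
    have hu' := h.comm hu hl' a3 a4
    obtain ⟨z, ζ, hz, c1, c2⟩ := h.ni hu'
    have h3 := h.cjv hl' hz c1 (-(χ z / χ y₁))
    have h4 := h.cjv hu' h3 (by simpa [h.zero hl'] using c1) (-(l z / l u))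
    have h5 := h.comm h4 hu (by simpa [a4] using c2) (by simp [h.zero hu, a3])
    exact ⟨_, h.comm h5 hl a3 (by simp [h.zero hl, a1]), h5⟩
  by_contra hn
  have e : na S y < na S b := by
    refine Set.ncard_lt_ncard ⟨fun φ' hφ => ?_, fun k => a2 (h.zero (k b1))⟩
    refine h.comm b1 hφ a2 ?_
    by_contra k
    exact hn (h.comm hφ b2 k h0)
  exact e.ne (h.na_eq hc hy b1)

theorem lin_V (h2 : (2 : k) ≠ 0) (hc : Conn S) (hB : ∀ {y l}, S y l → ∀ z, ∃ l', S y l' ∧ l' z = 0)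
    (hv : v ∈ V1 S) : v = 0 ∨ ∃ φ, S v φ := by
  induction hv using span_induction with
  | mem x hx => exact Or.inr hx
  | zero => exact Or.inl rfl
  | smul a x _ ih =>
    by_cases a0 : a = 0
    · simp [a0]
    · exact ih.imp (by simp +contextual) fun ⟨φ, k⟩ => ⟨φ, h.smul1 k a0⟩
  | add x y _ _ ih ih' =>
    rcases ih with rfl | ⟨φ, hx⟩
    · simpa using ih'
    rcases ih' with rfl | ⟨ψ, hy⟩
    · exact Or.inr ⟨φ, by simpa using hx⟩
    by_cases k : φ y = 0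
    · exact (eq_or_ne _ _).imp_right fun e => ⟨φ, h.add1 hx (h.lin h2 hc hB hy hx k) e⟩
    · have := h.cjv hx hy k 1
      rw [one_smul, add_comm] at this; exact Or.inr ⟨_, this⟩

theorem lin_L (h2 : (2 : k) ≠ 0) (hc : Conn S) (hB : ∀ {y l}, S y l → ∀ z, ∃ l', S y l' ∧ l' z = 0)
    (hv : φ ∈ L1 S) : φ = 0 ∨ ∃ v, S v φ := by
  induction hv using span_induction with
  | mem x hx => exact Or.inr hx
  | zero => exact Or.inl rfl
  | smul a x _ ih =>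
    by_cases a0 : a = 0
    · simp [a0]
    · exact ih.imp (by simp +contextual) fun ⟨φ, k⟩ => ⟨φ, h.smul2 k a0⟩
  | add x y _ _ ih ih' =>
    rcases ih with rfl | ⟨v, hx⟩
    · simpa using ih'
    rcases ih' with rfl | ⟨w, hy⟩
    · exact Or.inr ⟨v, by simpa using hx⟩
    by_cases k : y v = 0
    · exact (eq_or_ne _ _).imp_right fun e => ⟨v, h.add2 hx (h.lin h2 hc hB hx hy k) e⟩
    · have := h.cjf hx hy k 1
      rw [one_smul, add_comm] at this; exact Or.inr this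

theorem compl (hV : ∀ v ∈ V1 S, v = 0 ∨ ∃ φ, S v φ) (hL : ∀ φ ∈ L1 S, φ = 0 ∨ ∃ v, S v φ) :
    IsCompl (V1 S) (U1 S) ∧ ∀ f : Dual k (V1 S), ∃ φ ∈ L1 S, ∀ x : V1 S, φ x = f x := by
  haveI : Finite (Dual k V) := DFunLike.finite _
  let β : L1 S →ₗ[k] Dual k (V1 S) := (V1 S).subtype.dualMap ∘ₗ (L1 S).subtype
  have i1 : Function.Injective β := inj_of (A := L1 S) (B := Dual k (V1 S)) β fun φ e => by
    rcases hL φ φ.2 with k | ⟨v, k⟩
    · exact Subtype.ext k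
    · obtain ⟨u, χ, hu, a, -⟩ := h.ni k
      exact absurd (LinearMap.congr_fun e ⟨u, mem_V1 hu⟩) a
  have d : ∀ x ∈ V1 S, x ∈ U1 S → x = 0 := fun x hx hx' => (hV x hx).resolve_right fun ⟨φ, k⟩ => by
    obtain ⟨u, χ, hu, -, a⟩ := h.ni k
    exact a (hx' u χ hu)
  have i2 : Function.Injective β.flip := inj_of β.flip fun x e =>
    Subtype.ext (d x x.2 fun v φ k => LinearMap.congr_fun e ⟨φ, mem_L1 k⟩)
  have e1 := LinearMap.finrank_le_finrank_of_injective i1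
  have e2 := LinearMap.finrank_le_finrank_of_injective i2
  have e3 : finrank k (L1 S →ₗ[k] k) = finrank k (L1 S) := Subspace.dual_finrank_eq (V := L1 S)
  have e4 : finrank k (Dual k (V1 S)) = finrank k (V1 S) := Subspace.dual_finrank_eq
  have s1 := (LinearMap.injective_iff_surjective_of_finrank_eq_finrank (V := L1 S) (V₂ := Dual k (V1 S)) (f := β)
    (by omega)).1 i1
  have s2 := (LinearMap.injective_iff_surjective_of_finrank_eq_finrank (V := V1 S) (V₂ := L1 S →ₗ[k] k)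
    (f := β.flip) (by omega)).1 i2
  refine ⟨⟨disjoint_def.2 d, codisjoint_iff_le_sup.2 fun x _ => ?_⟩, fun f => ?_⟩
  · obtain ⟨x₁, e⟩ := s2 (Dual.eval k V x ∘ₗ (L1 S).subtype)
    refine mem_sup.2 ⟨x₁, x₁.2, x - x₁, fun v φ k => ?_, by abel⟩
    have : φ x₁ = φ x := LinearMap.congr_fun e ⟨φ, mem_L1 k⟩
    rw [map_sub, this, sub_self]
  · obtain ⟨φ, e⟩ := s1 f
    exact ⟨φ, φ.2, fun x => LinearMap.congr_fun e x⟩

/-! ### the symplectic case -/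

theorem triangle {v₀ v₁ v₂ : V} {φ₀ φ₁ φ₂ : Dual k V} (hA : ∀ {v φ w ψ}, S v φ → S w ψ → φ w = 0 → ψ v = 0)
    (h0 : S v₀ φ₀) (h1 : S v₁ φ₁) (h2 : S v₂ φ₂) (a1 : φ₀ v₁ ≠ 0) (a2 : φ₀ v₂ ≠ 0) (e1 : φ₁ v₀ = -φ₀ v₁)
    (e2 : φ₂ v₀ = -φ₀ v₂) : φ₁ v₂ = -φ₂ v₁ := by
  by_cases a : φ₁ v₂ = 0
  · rw [a, hA h1 h2 a, neg_zero]
  have := hA h0 (h.cjv h1 h2 a (-(φ₀ v₂ / φ₀ v₁))) (by simp [a1])
  simp only [LinearMap.sub_apply, LinearMap.smul_apply, smul_eq_mul, e1, e2] at this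
  field_simp at this
  exact mul_left_cancel₀ a2 (by linear_combination -this)

theorem exists_graph (h2 : (2 : k) ≠ 0) (hc : Conn S) (hA : ∀ {v φ w ψ}, S v φ → S w ψ → φ w = 0 → ψ v = 0) :
    ∃ Γ : Submodule k (V × Dual k V), (∀ x ∈ Γ, ∀ y ∈ Γ, x.2 y.1 = -y.2 x.1) ∧
      Γ ≤ span k {x | x ∈ Γ ∧ S x.1 x.2} ∧ ∀ u χ, S u χ → ∃ c : k, c ≠ 0 ∧ (u, c • χ) ∈ Γ := by
  by_cases hS : ∃ v φ, S v φ
  swap
  · exact ⟨⊥, by simp, bot_le, fun u χ k => absurd ⟨u, χ, k⟩ hS⟩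
  obtain ⟨v₀, φ₀, h0⟩ := hS
  let N : Set (V × Dual k V) := {x | x = (v₀, φ₀) ∨ (S x.1 x.2 ∧ φ₀ x.1 ≠ 0 ∧ x.2 v₀ = -φ₀ x.1)}
  have norm : ∀ w ψ, S w ψ → φ₀ w ≠ 0 → ∃ c : k, c ≠ 0 ∧ (w, c • ψ) ∈ N := fun w ψ hw a => by
    have b : ψ v₀ ≠ 0 := fun k => a (hA hw h0 k)
    have c0 : -(φ₀ w / ψ v₀) ≠ 0 := by simp [a, b]
    exact ⟨_, c0, Or.inr ⟨h.smul2 hw c0, a, by simp [b]⟩⟩
  refine ⟨span k N, fun x hx y hy => ?_, span_mono fun x hx => ⟨subset_span hx, ?_⟩, fun u χ hu => ?_⟩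
  · induction hx using span_induction with
    | zero => simp
    | add _ _ _ _ a b => simp [a, b, add_comm]
    | smul _ _ _ a => simp [a]
    | mem x hx =>
      induction hy using span_induction with
      | zero => simp
      | add _ _ _ _ a b => simp [a, b, add_comm]
      | smul _ _ _ a => simp [a]
      | mem y hy =>
        rcases hx with rfl | hx <;> rcases hy with rfl | hy
        · simp [h.zero h0]
        · rw [hy.2.2, neg_neg]
        · exact hx.2.2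
        · exact h.triangle hA h0 hx.1 hy.1 hx.2.1 hy.2.1 hx.2.2 hy.2.2
  · rcases hx with rfl | hx
    exacts [h0, hx.1]
  · by_cases a : φ₀ u = 0
    swap
    · exact (norm u χ hu a).imp fun c k => ⟨k.1, subset_span k.2⟩
    obtain ⟨w, ψ, hw, b1, b2⟩ := h.common h2 hc hu h0
    obtain ⟨c, c0, hN⟩ := norm w ψ hw fun k => b2 (hA h0 hw k)
    have b3 : χ w ≠ 0 := fun k => b1 (hA hu hw k)
    rcases hN with hN | hN
    · exact absurd (LinearMap.congr_fun (congrArg Prod.snd hN) u) (by simp [a, c0, b1])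
    have h3 : (w + (1 : k) • u, c • ψ - (1 / χ w * (c • ψ) u) • χ) ∈ N :=
      Or.inr ⟨h.cjv hu hN.1 b3 1, by simpa [a] using hN.2.1, by simpa [a, hA h0 hu a] using hN.2.2⟩
    refine ⟨-(1 / χ w * (c • ψ) u), by simp [b1, b3, c0], ?_⟩
    have := sub_mem (subset_span (R := k) h3) (subset_span (R := k) (Or.inr hN : (w, c • ψ) ∈ N))
    simpa [nsm] using this

theorem graph_mem (h2 : (2 : k) ≠ 0) (hc : Conn S)
    (hU : ∀ {v φ v' φ'}, S v φ → S v' φ' → v' - v ∈ U1 S → (∀ u χ, S u χ → (φ' - φ) u = 0) → v' = v ∧ φ' = φ)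
    {Γ : Submodule k (V × Dual k V)} (g1 : ∀ x ∈ Γ, ∀ y ∈ Γ, x.2 y.1 = -y.2 x.1)
    (g2 : Γ ≤ span k {x | x ∈ Γ ∧ S x.1 x.2}) (g3 : ∀ u χ, S u χ → ∃ c : k, c ≠ 0 ∧ (u, c • χ) ∈ Γ)
    {x : V × Dual k V} (hx : x ∈ Γ) : x = 0 ∨ S x.1 x.2 := by
  let N : Set (V × Dual k V) := {x | x ∈ Γ ∧ S x.1 x.2}
  have n1 : ∀ x ∈ N, ∀ y ∈ N, x.2 y.1 ≠ 0 → ∀ a : k, y + a • x ∈ N := fun x hx y hy b a => by
    refine ⟨add_mem hy.1 (smul_mem _ _ hx.1), ?_⟩
    have := h.cjv hx.2 hy.2 b a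
    rwa [g1 y hy.1 x hx.1, mul_neg, div_mul_cancel₀ _ b, nsm, sub_neg_eq_add] at this
  have n2 : ∀ x ∈ N, ∀ y ∈ N, x.2 y.1 ≠ 0 → y.2 x.1 ≠ 0 := fun x hx y hy b => by
    rw [g1 y hy.1 x hx.1]; exact neg_ne_zero.2 b
  have n3 : ∀ u χ, S u χ → ∃ c : k, c ≠ 0 ∧ (u, c • χ) ∈ N := fun u χ hu =>
    (g3 u χ hu).imp fun c k => ⟨k.1, k.2, h.smul2 hu k.1⟩
  have n4 : ∀ x ∈ N, ∀ y ∈ N, ∀ u ∈ N, x.2 y.1 = 0 → u.2 x.1 ≠ 0 → u.2 y.1 ≠ 0 → u.2 x.1 + u.2 y.1 ≠ 0 →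
      x + y ∈ N := fun x hx y hy u hu b0 b1 b2 b3 => by
    have k1 := n1 u hu x hx b1 1
    have k2 := n1 y hy _ k1 (n2 _ k1 _ hy (by simpa [b0] using b2)) 1
    have k3 := n1 u hu _ k2 (by simpa [h.zero hu.2] using b3) (-1)
    convert k3 using 1; module
  have n5 : ∀ x ∈ N, ∀ y ∈ N, ∀ u ∈ N, x.2 y.1 = 0 → u.2 x.1 ≠ 0 → u.2 y.1 = 0 → x + y ∈ N := by
    intro x hx y hy u hu b0 b1 b2
    obtain ⟨u₀, χ, hu₀, c1, c2⟩ := h.common h2 hc hx.2 hy.2
    obtain ⟨c, c0, hu'⟩ := n3 u₀ χ hu₀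
    obtain ⟨u', hu', c1, c2⟩ : ∃ u' ∈ N, u'.2 x.1 ≠ 0 ∧ u'.2 y.1 ≠ 0 :=
      ⟨_, hu', by simp [c0, c1], by simp [c0, c2]⟩
    by_cases c3 : u'.2 x.1 + u'.2 y.1 = 0
    swap
    · exact n4 x hx y hy u' hu' b0 c1 c2 c3
    obtain ⟨u, hu, b1, b2, b3⟩ : ∃ u ∈ N, u.2 x.1 ≠ 0 ∧ u.2 y.1 = 0 ∧ u.2 u'.1 ≠ 0 := by
      by_cases b3 : u.2 u'.1 = 0
      · exact ⟨_, n1 x hx u hu (n2 _ hu _ hx b1) 1, by simpa [h.zero hx.2] using b1, by simp [b0, b2],
          by simpa [b3] using n2 _ hu' _ hx c1⟩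
      · exact ⟨u, hu, b1, b2, b3⟩
    obtain ⟨d, d0, hd⟩ := exists_avoid h2 (b := u.2 x.1) (Or.inl c1)
    refine n4 x hx y hy _ (n1 u hu u' hu' b3 d) b0 (by simpa using hd) (by simpa [b2] using c2) fun e => ?_
    simp only [Prod.snd_add, Prod.smul_snd, LinearMap.add_apply, LinearMap.smul_apply, smul_eq_mul, b2] at e
    exact mul_ne_zero d0 b1 (by linear_combination e - c3)
  have n6 : ∀ x ∈ N, ∀ y ∈ N, x + y = 0 ∨ x + y ∈ N := fun x hx y hy => by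
    by_cases b0 : x.2 y.1 = 0
    swap
    · right; simpa [add_comm] using n1 x hx y hy b0 1
    by_cases b : ∃ u ∈ N, u.2 x.1 + u.2 y.1 ≠ 0
    · obtain ⟨u, hu, b⟩ := b
      right
      by_cases b1 : u.2 x.1 = 0
      · rw [add_comm]
        exact n5 y hy x hx u hu (by rw [g1 y hy.1 x hx.1, b0, neg_zero]) (by simpa [b1] using b) b1
      by_cases b2 : u.2 y.1 = 0
      · exact n5 x hx y hy u hu b0 b1 b2
      · exact n4 x hx y hy u hu b0 b1 b2 b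
    push Not at b
    left
    have := hU (h.smul2 (h.smul1 hx.2 (c := -1) (by simp)) (c := -1) (by simp)) hy.2 (fun u χ hu => by
      obtain ⟨c, c0, k⟩ := n3 u χ hu
      have := b _ k
      simp only [LinearMap.smul_apply, smul_eq_mul, ← mul_add, mul_eq_zero, c0, false_or] at this
      simpa [add_comm] using this) fun u χ hu => by
      obtain ⟨c, c0, k⟩ := n3 u χ hu
      have := b _ k
      rw [g1 _ k.1 x hx.1, g1 _ k.1 y hy.1] at this
      simp only [nsm, one_smul, sub_neg_eq_add, LinearMap.add_apply]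
      linear_combination -this
    exact Prod.ext (by simp [this.1]) (by simp [this.2, nsm])
  have : ∀ x ∈ span k N, x = 0 ∨ x ∈ N := fun x hx => by
    induction hx using span_induction with
    | mem x hx => exact Or.inr hx
    | zero => exact Or.inl rfl
    | smul a x _ ih =>
      by_cases a0 : a = 0
      · simp [a0]
      · exact ih.imp (by simp +contextual) fun k => ⟨smul_mem _ _ k.1, h.smul2 (h.smul1 k.2 a0) a0⟩
    | add x y _ _ ih ih' =>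
      rcases ih with rfl | hx
      · simpa using ih'
      rcases ih' with rfl | hy
      · exact Or.inr (by simpa using hx)
      · exact n6 x hx y hy
  exact (this x (g2 hx)).imp_right fun k => k.2

/-- the structure of a connected system -/
theorem main (h2 : (2 : k) ≠ 0) (hc : Conn S)
    (hU : ∀ {v φ v' φ'}, S v φ → S v' φ' → v' - v ∈ U1 S → (∀ u χ, S u χ → (φ' - φ) u = 0) → v' = v ∧ φ' = φ) :
    IsCompl (V1 S) (U1 S) ∧
      ((∀ (x : V1 S) (f : Dual k (V1 S)), x ≠ 0 → f ≠ 0 → f x = 0 → ∃ φ, S x φ ∧ ∀ y : V1 S, φ y = f y) ∨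
        ∃ B : LinearMap.BilinForm k (V1 S), B.IsAlt ∧ B.Nondegenerate ∧
          (∀ x : V1 S, x ≠ 0 → ∃ φ, S x φ ∧ ∀ y : V1 S, φ y = B x y) ∧
          ∀ (x : V1 S) φ, S x φ → ∃ c : k, ∀ y : V1 S, φ y = c * B x y) := by
  by_cases hA : ∀ {v φ w ψ}, S v φ → S w ψ → φ w = 0 → ψ v = 0
  swap
  · push Not at hA
    obtain ⟨v, φ, w, ψ, hv, hw, a, b⟩ := hA
    have hB : ∀ {y l}, S y l → ∀ z, ∃ l', S y l' ∧ l' z = 0 := fun hy z => h.exists_zero hc hw hv b a hy z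
    obtain ⟨c1, c2⟩ := h.compl (fun _ => h.lin_V h2 hc hB) fun _ => h.lin_L h2 hc hB
    refine ⟨c1, Or.inl fun x f x0 f0 e => ?_⟩
    obtain ⟨φ, hφ, e'⟩ := c2 f
    obtain ⟨u, hu⟩ := (h.lin_L h2 hc hB hφ).resolve_left fun k => f0 (LinearMap.ext fun y => by
      rw [← e', k]; rfl)
    obtain ⟨ψ, hx⟩ := (h.lin_V h2 hc hB x.2).resolve_left fun k => x0 (Subtype.ext k)
    exact ⟨φ, h.lin h2 hc hB hx hu ((e' x).trans e), e'⟩
  obtain ⟨Γ, g1, g2, g3⟩ := h.exists_graph h2 hc hA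
  have g4 : ∀ x ∈ Γ, x = 0 ∨ S x.1 x.2 := fun x hx => h.graph_mem h2 hc hU g1 g2 g3 hx
  have m1 : V1 S ≤ Γ.map (LinearMap.fst ..) := span_le.2 fun v ⟨φ, k⟩ =>
    let ⟨_, _, e⟩ := g3 v φ k; ⟨_, e, rfl⟩
  have m2 : L1 S ≤ Γ.map (LinearMap.snd ..) := span_le.2 fun φ ⟨v, k⟩ => by
    obtain ⟨c, c0, e⟩ := g3 v φ k
    exact ⟨_, smul_mem _ c⁻¹ e, by simp [smul_smul, c0]⟩
  obtain ⟨c1, -⟩ := h.compl (fun v hv => by
    obtain ⟨x, hx, rfl⟩ := m1 hv
    exact (g4 x hx).imp (fun k => by simp [k]) fun k => ⟨_, k⟩) fun φ hφ => by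
    obtain ⟨x, hx, rfl⟩ := m2 hφ
    exact (g4 x hx).imp (fun k => by simp [k]) fun k => ⟨_, k⟩
  let π : Γ →ₗ[k] V1 S := (LinearMap.fst .. ∘ₗ Γ.subtype).codRestrict _ fun x =>
    (g4 x x.2).elim (fun k => by simp [k]) fun k => mem_V1 k
  have hπ : Function.Bijective π := ⟨inj_of (A := Γ) (B := V1 S) π fun x e => Subtype.ext
    ((g4 x x.2).resolve_right fun k => h.ne1 k (congrArg Subtype.val e)), fun v => by
      obtain ⟨x, hx, e⟩ := m1 v.2
      exact ⟨⟨x, hx⟩, Subtype.ext e⟩⟩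
  let θ : V1 S →ₗ[k] Dual k V := LinearMap.snd .. ∘ₗ Γ.subtype ∘ₗ (LinearEquiv.ofBijective π hπ).symm.toLinearMap
  have hθ : ∀ x : V1 S, ((x : V), θ x) ∈ Γ := fun x => by
    have e : (((LinearEquiv.ofBijective π hπ).symm x : Γ) : V × Dual k V).1 = x :=
      congrArg Subtype.val ((LinearEquiv.ofBijective π hπ).apply_symm_apply x)
    rw [← e]; exact ((LinearEquiv.ofBijective π hπ).symm x).2
  have hS : ∀ x : V1 S, x ≠ 0 → S x (θ x) := fun x x0 =>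
    (g4 _ (hθ x)).resolve_left fun k => x0 (Subtype.ext (congrArg Prod.fst k))
  let B : LinearMap.BilinForm k (V1 S) := (V1 S).subtype.dualMap ∘ₗ θ
  have alt : B.IsAlt := fun x => by
    by_cases x0 : x = 0
    · simp [x0]
    · exact h.zero (hS x x0)
  refine ⟨c1, Or.inr ⟨B, alt, alt.isRefl.nondegenerate_iff_separatingLeft.2 fun x e => ?_,
    fun x x0 => ⟨_, hS x x0, fun _ => rfl⟩, fun x φ hx => ?_⟩⟩
  · by_contra x0
    obtain ⟨u, χ, hu, a, -⟩ := h.ni (hS x x0)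
    exact a (e ⟨u, mem_V1 hu⟩)
  · obtain ⟨c, c0, e⟩ := g3 x φ hx
    have := (g4 _ (sub_mem (hθ x) e)).resolve_right fun k => h.ne1 k (sub_self _)
    have e2 : θ x = c • φ := sub_eq_zero.1 (congrArg Prod.snd this)
    refine ⟨c⁻¹, fun y => ?_⟩
    change _ = _ * θ x y
    rw [e2]; simp [c0]

end Sys

end CA.McL
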