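import Cfsg.Agent.Lib.Root.M1
import Cfsg.Agent.Lib.Grp.Subn
import Cfsg.Agent.Lib.Lin.CFormPt
import Cfsg.Agent.Lib.Lin.SLnGen

/-!
Groups generated by transvections over a prime field of odd order (McLaughlin's theorem).
-/

set_option autoImplicit false
set_option linter.unusedSectionVars false

namespace CA.McL

open Module Submodule Cfsg

variable {k V : Type*} [Field k] [AddCommGroup V] [Module k V] {S : V → Dual k V → Prop}
  {u v w x : V} {φ ψ χ : Dual k V} {H : Subgroup (V ≃ₗ[k] V)} {g t : V ≃ₗ[k] V}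

/-! ### components -/

/-- the component of `b` -/
def Cp (S : V → Dual k V → Prop) (b : V × Dual k V) (v : V) (φ : Dual k V) : Prop :=
  S v φ ∧ Relation.ReflTransGen (Adj S) b (v, φ)

theorem Cp.adj {b : V × Dual k V} (h : Cp S b v φ) (hw : S w ψ) (a : φ w ≠ 0 ∨ ψ v ≠ 0) : Cp S b w ψ :=
  ⟨hw, h.2.tail ⟨h.1, hw, a⟩⟩

theorem rtg_symm {x y : V × Dual k V} (h : Relation.ReflTransGen (Adj S) x y) :
    Relation.ReflTransGen (Adj S) y x := by
  induction h with
  | refl => exact .refl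
  | tail _ a ih => exact .head a.symm ih

theorem cp_eq {b b' : V × Dual k V} (h : Cp S b v φ) (h' : Cp S b' v φ) : Cp S b = Cp S b' := by
  ext w ψ
  exact and_congr_right fun _ => ⟨fun r => h'.2.trans ((rtg_symm h.2).trans r),
    fun r => h.2.trans ((rtg_symm h'.2).trans r)⟩

theorem Sys.cp (h : Sys S) (b : V × Dual k V) : Sys (Cp S b) := by
  have key : ∀ {v φ w ψ}, Cp S b v φ → S w ψ → ((∀ u, φ u ≠ 0 → ψ u ≠ 0) ∨ ∀ χ : Dual k V, χ v ≠ 0 → χ w ≠ 0) →
      Cp S b w ψ := fun hv hw a => by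
    obtain ⟨u, χ, hu, b1, b2⟩ := h.ni hv.1
    exact (hv.adj hu (Or.inl b1)).adj hw (a.symm.imp (fun a => a χ b2) fun a => a u b1)
  refine ⟨fun a => h.ne1 a.1, fun a => h.ne2 a.1, fun a => h.zero a.1,
    fun a c => key a (h.smul1 a.1 c) (Or.inl fun _ e => e), fun a c => key a (h.smul2 a.1 c) (Or.inr fun _ e => e),
    fun {u χ w ψ} a a' c => ?_, fun a a' c => key a (h.add1 a.1 a'.1 c) (Or.inl fun _ e => e),
    fun a a' c => key a (h.add2 a.1 a'.1 c) (Or.inr fun _ e => e), fun a => ?_⟩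
  · by_cases b1 : χ w = 0
    · by_cases b2 : ψ u = 0
      · simpa [b1, b2] using a'
      · exact a.adj (h.cj a.1 a'.1 c) (Or.inr (by simpa [h.zero a.1] using b2))
    · exact a.adj (h.cj a.1 a'.1 c) (Or.inl (by simpa [h.zero a.1] using b1))
  · obtain ⟨u, χ, hu, b1, b2⟩ := h.ni a.1
    exact ⟨u, χ, a.adj hu (Or.inl b1), b1, b2⟩

theorem conn_cp (b : V × Dual k V) : Conn (Cp S b) := fun v φ w ψ hv hw => by
  have : ∀ x, Relation.ReflTransGen (Adj S) (v, φ) x →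
      Cp S b x.1 x.2 ∧ Relation.ReflTransGen (Adj (Cp S b)) (v, φ) x := fun x hx => by
    induction hx with
    | refl => exact ⟨hv, .refl⟩
    | tail _ a ih => exact ⟨ih.1.adj a.2.1 a.2.2, ih.2.tail ⟨ih.1, ih.1.adj a.2.1 a.2.2, a.2.2⟩⟩
  exact (this _ ((rtg_symm hv.2).trans hw.2)).2

/-! ### stabilizers of chains -/

/-- the stabilizer of the chain `V ≥ A ≥ B ≥ 0` -/
def St (A B : Submodule k V) (h : B ≤ A) : Subgroup (V ≃ₗ[k] V) where
  carrier := {g | (∀ x, g x - x ∈ A) ∧ (∀ x ∈ A, g x - x ∈ B) ∧ ∀ x ∈ B, g x = x}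
  one_mem' := by simp
  mul_mem' {a b} ha hb := by
    refine ⟨fun x => ?_, fun x hx => ?_, fun x hx => ?_⟩
    · simpa using add_mem (ha.1 (b x)) (hb.1 x)
    · have : b x ∈ A := by simpa using add_mem (hb.1 x) hx
      simpa using add_mem (ha.2.1 (b x) this) (hb.2.1 x hx)
    · rw [LinearEquiv.mul_apply, hb.2.2 x hx, ha.2.2 x hx]
  inv_mem' {a} ha := by
    refine ⟨fun x => ?_, fun x hx => ?_, fun x hx => ?_⟩
    · simpa using neg_mem (ha.1 (a⁻¹ x))
    · have : a⁻¹ x ∈ A := by simpa using sub_mem hx (ha.1 (a⁻¹ x))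
      simpa using neg_mem (ha.2.1 _ this)
    · exact a.injective (by rw [ha.2.2 x hx]; simp)

theorem isPGroup_St {p : ℕ} (hp : p.Prime) (h3 : 3 ≤ p) (h0 : (p : k) = 0) {A B : Submodule k V} (h : B ≤ A) :
    IsPGroup p (St A B h) := fun g => by
  refine ⟨1, Subtype.ext (LinearEquiv.toLinearMap_injective ?_)⟩
  let N : End k V := (g.1 : V →ₗ[k] V) - 1
  have e : N ^ 3 = 0 := by
    ext x
    have := g.2.2.2 _ (g.2.2.1 _ (g.2.1 x))
    simpa [N, pow_succ, sub_eq_zero] using this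
  have e1 : ((g.1 : V →ₗ[k] V) : End k V) = 1 + N := by simp [N]
  have e2 : (p : End k V) = 0 := by rw [← map_natCast (algebraMap k (End k V)), h0, map_zero]
  have e3 : N ^ p = 0 := pow_eq_zero_of_le h3 e
  change ((LinearEquiv.automorphismGroup.toLinearMapMonoidHom (g.1 ^ p ^ 1)) : End k V) = 1
  rw [map_pow, pow_one]
  change ((g.1 : V →ₗ[k] V) : End k V) ^ p = 1
  rw [e1, (Commute.one_left N).add_pow_prime_eq hp, e2, e3]; simp

/-- `g` is the transvection with centre `v` and axis `φ` -/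
def Tv (g : V ≃ₗ[k] V) (v : V) (φ : Dual k V) : Prop := ∀ x, g x = x + φ x • v

theorem Tv.inv (h : Tv g v φ) (h0 : φ v = 0) : Tv g⁻¹ v (-φ) := fun x =>
  g.injective (by rw [h (x + _)]; simp [h0])

theorem Tv.conj (h : Tv t v φ) (g : V ≃ₗ[k] V) : Tv (g * t * g⁻¹) (g v) (φ ∘ₗ (g⁻¹ : V ≃ₗ[k] V)) := fun x => by
  rw [LinearEquiv.mul_apply, LinearEquiv.mul_apply, h]; simp

theorem Tv.pow (h : Tv g v φ) (h0 : φ v = 0) (n : ℕ) : Tv (g ^ n) v ((n : k) • φ) := fun x => by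
  induction n with
  | zero => simp
  | succ n ih => rw [pow_succ', LinearEquiv.mul_apply, ih, h]; simp [h0, add_mul, add_smul, add_assoc]

theorem Tv.mem_St (h : Tv g v φ) (h0 : φ v = 0) {A B : Submodule k V} (hle : B ≤ A) (hv : v ∈ A)
    (h1 : v ∈ B ∨ ∀ x ∈ A, φ x = 0) (h2 : ∀ x ∈ B, φ x = 0) : g ∈ St A B hle := by
  refine ⟨fun x => by simpa [h x] using smul_mem _ _ hv, fun x hx => ?_, fun x hx => by simp [h x, h2 x hx]⟩
  rcases h1 with h1 | h1
  · simpa [h x] using smul_mem _ _ h1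
  · simp [h x, h1 x hx]

/-- the transvections of `H` -/
def SH (H : Subgroup (V ≃ₗ[k] V)) (v : V) (φ : Dual k V) : Prop := v ≠ 0 ∧ φ ≠ 0 ∧ φ v = 0 ∧ ∃ g ∈ H, Tv g v φ

theorem SH.conj (h : SH H v φ) (hg : g ∈ H) : SH H (g v) (φ ∘ₗ (g⁻¹ : V ≃ₗ[k] V)) := by
  obtain ⟨h1, h2, h3, t, ht, e⟩ := h
  refine ⟨by simpa using h1, fun e => h2 (LinearMap.ext fun x => ?_), by simpa using h3, _,
    mul_mem (mul_mem hg ht) (inv_mem hg), e.conj g⟩
  simpa using LinearMap.congr_fun e (g x)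

theorem two_St {p : ℕ} (hp : p.Prime) (h3 : 3 ≤ p) (h0 : (p : k) = 0) (hg : Tv g v φ) (ht : Tv t w ψ)
    (h1 : φ v = 0) (h2 : ψ w = 0) (h : ψ v = 0) : IsPGroup p (Subgroup.zpowers g ⊔ Subgroup.zpowers t : Subgroup _) := by
  have hle : span k {v} ≤ span k {v, w} := span_mono (by simp)
  have a1 : ∀ x ∈ span k {v}, φ x = 0 := fun x hx => by
    obtain ⟨a, rfl⟩ := mem_span_singleton.1 hx; simp [h1]
  have a2 : ∀ x ∈ span k {v, w}, ψ x = 0 := fun x hx => by
    obtain ⟨a, b, rfl⟩ := mem_span_pair.1 hx; simp [h, h2]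
  exact (isPGroup_St hp h3 h0 hle).to_le (sup_le (Subgroup.zpowers_le.2 (hg.mem_St h1 hle
    (subset_span (by simp)) (Or.inl (subset_span rfl)) a1)) (Subgroup.zpowers_le.2 (ht.mem_St h2 hle
      (subset_span (by simp)) (Or.inr a2) fun x hx => a2 x (hle hx))))

theorem Tv.ne_one (h : Tv g v φ) (h1 : v ≠ 0) (h2 : φ ≠ 0) : g ≠ 1 := by
  rintro rfl
  refine h2 (LinearMap.ext fun x => ?_)
  simpa [h1] using h x

section P

variable {p : ℕ} [hp : Fact p.Prime] {V : Type*} [AddCommGroup V] [Module (ZMod p) V] [Finite V]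
  {H : Subgroup (V ≃ₗ[ZMod p] V)}

instance : Finite (V ≃ₗ[ZMod p] V) := Finite.of_injective _ DFunLike.coe_injective

theorem sys (h3 : 3 ≤ p) (hO : pCore p H = ⊥) : Sys (SH H) := by
  have sm : ∀ {v φ} (c : ZMod p), SH H v φ → ∃ g ∈ H, Tv g v (c • φ) := fun c ⟨_, _, h0, g, hg, e⟩ =>
    ⟨_, pow_mem hg c.val, by simpa using e.pow h0 c.val⟩
  refine ⟨fun a => a.1, fun a => a.2.1, fun a => a.2.2.1, fun {v φ c} a c0 => ⟨smul_ne_zero c0 a.1, a.2.1,
    by simp [a.2.2.1], (sm c a).imp fun g e => ⟨e.1, fun x => by rw [e.2, smul_smul, mul_comm]; rfl⟩⟩,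
    fun {v φ c} a c0 => ⟨a.1, smul_ne_zero c0 a.2.1, by simp [a.2.2.1], sm c a⟩, fun {u χ w ψ} a a' c => ?_,
    fun {v w φ} ⟨_, a2, a3, g, hg, e⟩ ⟨_, _, b3, t, ht, e'⟩ c => ⟨c, a2, by simp [a3, b3], _, mul_mem hg ht,
      fun x => by rw [LinearEquiv.mul_apply, e', e]; simp [b3]; abel⟩,
    fun {v φ ψ} ⟨a1, _, a3, g, hg, e⟩ ⟨_, _, b3, t, ht, e'⟩ c => ⟨a1, c, by simp [a3, b3], _, mul_mem hg ht,
      fun x => by rw [LinearEquiv.mul_apply, e', e]; simp [a3, add_smul]; abel⟩, fun {v φ} a => ?_⟩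
  · obtain ⟨g, hg, e⟩ := sm c a
    have := a'.conj hg
    have e2 : ψ ∘ₗ (g⁻¹ : V ≃ₗ[ZMod p] V) = ψ - (c * ψ u) • χ := LinearMap.ext fun x => by
      have := e.inv (by simp [a.2.2.1]) x
      change ψ (g⁻¹ x) = _
      rw [this]; simp; ring
    rwa [e2, e] at this
  · by_contra hn
    push Not at hn
    obtain ⟨a1, a2, a3, t, ht, e⟩ := id a
    have : Subgroup.zpowers (⟨t, ht⟩ : H) ≤ pCore p H := CA.Subn.baer_suzuki _ fun g => by
      rw [MonoidHom.map_zpowers]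
      refine IsPGroup.of_equiv ?_ (Subgroup.equivMapOfInjective _ _ H.subtype_injective).symm
      rw [Subgroup.map_sup, MonoidHom.map_zpowers, MonoidHom.map_zpowers]
      have b := a.conj g.2
      by_cases c : φ (g.1 v) = 0
      · rw [sup_comm]; exact two_St hp.out h3 (by simp) (e.conj g) e b.2.2.1 a3 c
      · exact two_St hp.out h3 (by simp) e (e.conj g) a3 b.2.2.1 (hn _ _ b c)
    rw [hO, le_bot_iff, Subgroup.zpowers_eq_bot] at this
    exact e.ne_one a1 a2 (congrArg Subtype.val this)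

theorem exists_tv {t : V ≃ₗ[ZMod p] V} (h1 : orderOf t = p)
    (h2 : finrank (ZMod p) (LinearMap.ker ((t : V →ₗ[ZMod p] V) - LinearMap.id)) + 1 = finrank (ZMod p) V) :
    ∃ v φ, v ≠ 0 ∧ φ ≠ 0 ∧ φ v = 0 ∧ Tv t v φ := by
  have e := LinearMap.finrank_range_add_finrank_ker ((t : V →ₗ[ZMod p] V) - LinearMap.id)
  obtain ⟨⟨v, hv⟩, v0, hs⟩ := finrank_eq_one_iff'.1
    (show finrank (ZMod p) (LinearMap.range ((t : V →ₗ[ZMod p] V) - LinearMap.id)) = 1 by omega)
  have v0' : v ≠ 0 := fun e => v0 (Subtype.ext e)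
  let φ : Dual (ZMod p) V := (LinearEquiv.coord (ZMod p) V v v0').toLinearMap ∘ₗ
    ((t : V →ₗ[ZMod p] V) - LinearMap.id).codRestrict _ fun x => by
      obtain ⟨c, hc⟩ := hs ⟨_, x, rfl⟩
      exact mem_span_singleton.2 ⟨c, congrArg Subtype.val hc⟩
  have ht : Tv t v φ := fun x => by
    have : φ x • v = t x - x := LinearEquiv.coord_apply_smul (ZMod p) V v v0' _
    rw [this]; abel
  refine ⟨v, φ, v0', fun e => ?_, ?_, ht⟩
  · have : t = 1 := LinearEquiv.ext fun x => by simpa [e] using ht x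
    rw [this, orderOf_one] at h1; exact hp.out.one_lt.ne h1
  · have : ∀ n : ℕ, (t ^ n) v = (1 + φ v) ^ n • v := fun n => by
      induction n with
      | zero => simp
      | succ n ih => rw [pow_succ', LinearEquiv.mul_apply, ih, map_smul, ht v, pow_succ, mul_smul, add_smul, one_smul]
    have h4 := this p
    rw [show t ^ p = 1 by have := pow_orderOf_eq_one t; rwa [h1] at this, ZMod.pow_card, add_smul,
      one_smul] at h4
    simpa [v0'] using h4

end P

/-! ### the group generated by a system -/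

/-- the group generated by the transvections of `S` -/
def GS (S : V → Dual k V → Prop) : Subgroup (V ≃ₗ[k] V) := Subgroup.closure {g | ∃ v φ, S v φ ∧ Tv g v φ}

/-- the stabilizer of a subspace -/
def Inv (W : Submodule k V) : Subgroup (V ≃ₗ[k] V) where
  carrier := {g | W.map (g : V →ₗ[k] V) = W}
  one_mem' := map_id W
  mul_mem' {a b} ha hb := by
    change W.map ((a : V →ₗ[k] V) ∘ₗ (b : V →ₗ[k] V)) = W
    rw [map_comp, hb, ha]
  inv_mem' {a} ha := by
    change W.map _ = W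
    conv_lhs => rw [← ha, ← map_comp]
    convert map_id W; ext; simp

theorem Inv.mem {W : Submodule k V} (h : g ∈ Inv W) (hx : x ∈ W) : g x ∈ W := h ▸ ⟨x, hx, rfl⟩

theorem Tv.mem_Inv (h : Tv g v φ) (h0 : φ v = 0) {W : Submodule k V} (hW : ∀ x ∈ W, φ x • v ∈ W) : g ∈ Inv W :=
  le_antisymm (by rintro _ ⟨x, hx, rfl⟩; exact (h x).symm ▸ add_mem hx (hW x hx)) fun x hx =>
    ⟨x - φ x • v, sub_mem hx (hW x hx), by simp [h (x - φ x • v), h0]⟩

/-- the pointwise stabilizer -/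
def Fix (W : Submodule k V) : Subgroup (V ≃ₗ[k] V) where
  carrier := {g | ∀ x ∈ W, g x = x}
  one_mem' _ _ := rfl
  mul_mem' ha hb x hx := by rw [LinearEquiv.mul_apply, hb x hx, ha x hx]
  inv_mem' {a} ha x hx := a.injective (by rw [ha x hx]; simp)

theorem GS_le_Fix : GS S ≤ Fix (U1 S) := (Subgroup.closure_le _).2 fun _ ⟨v, φ, h, e⟩ x hx => by
  rw [e, hx v φ h]; simp

theorem GS_sub (hg : g ∈ GS S) (x : V) : g x - x ∈ V1 S := by
  induction hg using Subgroup.closure_induction generalizing x with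
  | mem g hg => obtain ⟨v, φ, h, e⟩ := hg; simpa [e x] using smul_mem _ _ (mem_V1 h)
  | one => simp
  | mul a b _ _ ha hb => simpa using add_mem (ha (b x)) (hb x)
  | inv a _ ha => simpa using neg_mem (ha (a⁻¹ x))

/-- restriction to an invariant subspace -/
def res (G : Subgroup (V ≃ₗ[k] V)) (W : Submodule k V) (h : G ≤ Inv W) : G →* (W ≃ₗ[k] W) :=
  MonoidHom.mk' (fun g => g.1.ofSubmodules W W (h g.2)) fun _ _ => rfl

theorem res_apply {G : Subgroup (V ≃ₗ[k] V)} {W : Submodule k V} (h : G ≤ Inv W) (g : G) (x : W) :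
    (res G W h g x : V) = g.1 x := rfl

theorem range_res_le {W : Submodule k V} (h : GS S ≤ Inv W) {L : Subgroup (W ≃ₗ[k] W)}
    (hL : ∀ (g : GS S) v φ, S v φ → Tv g.1 v φ → res _ W h g ∈ L) : (res _ W h).range ≤ L := by
  rintro _ ⟨⟨g, hg⟩, rfl⟩
  induction hg using Subgroup.closure_induction with
  | mem g hg => obtain ⟨v, φ, a, e⟩ := id hg; exact hL ⟨g, Subgroup.subset_closure hg⟩ v φ a e
  | one => exact (map_one (res _ W h)).symm ▸ one_mem L
  | mul a b ha hb iha ihb => exact (map_mul (res _ W h) ⟨a, ha⟩ ⟨b, hb⟩).symm ▸ mul_mem iha ihb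
  | inv a ha ih => exact (map_inv (res _ W h) ⟨a, ha⟩).symm ▸ inv_mem ih

theorem mem_of_det [FiniteDimensional k V] (h : ∀ v (φ : Dual k V), φ v = 0 → ∃ g ∈ H, Tv g v φ)
    (hg : LinearMap.det (g : V →ₗ[k] V) = 1) : g ∈ H := by
  let b := finBasis k V
  let e := Matrix.SpecialLinearGroup.toLin_equiv (R := k) b
  have : H.comap (SpecialLinearGroup.toLinearEquiv.comp e.toMonoidHom) = ⊤ :=
    CA.SLnGen.eq_top_of_transvection fun i j hij c => by
      obtain ⟨t, ht, e'⟩ := h (b i) (c • b.coord j) (by simp [hij.symm])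
      refine Subgroup.mem_comap.2 (Eq.subst (motive := (· ∈ H)) ?_ ht)
      refine LinearEquiv.toLinearMap_injective (b.ext fun l => ?_)
      change t (b l) = ((e _).1 : V →ₗ[k] V) (b l)
      rw [e', Matrix.SpecialLinearGroup.toLin_equiv.toLinearMap_eq, Matrix.SpecialLinearGroup.transvection_coe,
        map_add, Matrix.toLin_one]
      by_cases a : l = j
      · subst a; simp [Matrix.toLin_self, Matrix.single_apply]
      · simp [Matrix.toLin_self, Matrix.single_apply, a, Ne.symm a]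
  have h2 := this.ge (Subgroup.mem_top (e.symm ⟨g, Units.ext (by rw [LinearEquiv.coe_det, hg]; rfl)⟩))
  rw [Subgroup.mem_comap, MonoidHom.comp_apply, MulEquiv.coe_toMonoidHom, MulEquiv.apply_symm_apply] at h2
  exact h2

theorem range_res [Finite V] [Finite k] (hS : Sys S) (h2 : (2 : k) ≠ 0) (hc : Conn S)
    (hU : ∀ {v φ v' φ'}, S v φ → S v' φ' → v' - v ∈ U1 S → (∀ u χ, S u χ → (φ' - φ) u = 0) → v' = v ∧ φ' = φ)
    (h : GS S ≤ Inv (V1 S)) :
    ((res _ _ h).range : Set (V1 S ≃ₗ[k] V1 S)) =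
      {f : V1 S ≃ₗ[k] V1 S | LinearMap.det (f : V1 S →ₗ[k] V1 S) = 1} ∨
      ∃ B : LinearMap.BilinForm k (V1 S), B.IsAlt ∧ B.Nondegenerate ∧
        ((res _ _ h).range : Set (V1 S ≃ₗ[k] V1 S)) = {f | ∀ x y, B (f x) (f y) = B x y} := by
  have key : ∀ (x : V1 S) (f : Dual k (V1 S)) φ, S x φ → (∀ y : V1 S, φ y = f y) →
      ∃ g ∈ (res _ _ h).range, Tv g x f := fun x f φ a e =>
    ⟨_, ⟨⟨LinearEquiv.transvection (hS.zero a), Subgroup.subset_closure ⟨x, φ, a, fun _ => rfl⟩⟩, rfl⟩,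
      fun y => Subtype.ext (by rw [res_apply, LinearEquiv.transvection.apply, e]; rfl)⟩
  rcases (hS.main h2 hc hU).2 with h1 | ⟨B, alt, nd, h1, h3⟩
  · refine Or.inl (Set.Subset.antisymm (fun f hf => ?_) fun f hf => mem_of_det (fun x f e => ?_) hf)
    · have := range_res_le h (L := LinearEquiv.det.ker) (fun g v φ a e => ?_) hf
      · rw [Set.mem_ofPred_eq, ← LinearEquiv.coe_det, this]; rfl
      · have : res _ _ h g = LinearEquiv.transvection (f := φ ∘ₗ (V1 S).subtype) (v := ⟨v, mem_V1 a⟩) (hS.zero a) :=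
          LinearEquiv.ext fun y => Subtype.ext (e y)
        rw [MonoidHom.mem_ker, this, LinearEquiv.transvection.det_eq_one]
    · by_cases x0 : x = 0
      · exact ⟨1, one_mem _, fun y => by simp [x0]⟩
      by_cases f0 : f = 0
      · exact ⟨1, one_mem _, fun y => by simp [f0]⟩
      obtain ⟨φ, a, e'⟩ := h1 x f x0 f0 e
      exact key x f φ a e'
  · let F := CA.CForm.Form.ofAlt B alt
    refine Or.inr ⟨B, alt, nd, Set.Subset.antisymm (fun f hf => ?_) fun f hf => ?_⟩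
    · refine (F.symp_mem_Isom).1 (range_res_le h (L := F.Isom) (fun g v φ a e => ?_) hf)
      obtain ⟨c, hc⟩ := h3 ⟨v, mem_V1 a⟩ φ a
      have e' : ∀ y, res _ _ h g y = y + (c * B ⟨v, mem_V1 a⟩ y) • ⟨v, mem_V1 a⟩ := fun y =>
        Subtype.ext (by rw [res_apply, e, hc]; rfl)
      refine (F.symp_mem_Isom).2 fun x y => ?_
      change B _ _ = B _ _
      rw [e', e']
      simp only [map_add, map_smul, LinearMap.add_apply, LinearMap.smul_apply, smul_eq_mul, alt.self_eq_zero,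
        ← alt.neg_eq ⟨v, mem_V1 a⟩ x]
      ring
    · have := (CA.CForm.Form.ofAlt_nondeg alt nd).symp_eq_top_of_Tgrp
        (G := (res _ _ h).range.subgroupOf F.Isom) fun x c hc => by
          by_cases x0 : x = 0
          · subst x0; rw [CA.CForm.Form.eichler_zero_left]; exact one_mem _
          by_cases c0 : c = 0
          · subst c0; rw [CA.CForm.Form.eichler_zero]; exact one_mem _
          obtain ⟨φ, a, e⟩ := h1 x x0
          obtain ⟨g, hg, e'⟩ := key x (c • B x) _ (hS.smul2 a c0) fun y => by simp [e]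
          refine Subgroup.mem_subgroupOf.2 (Eq.subst (motive := (· ∈ (res _ _ h).range)) ?_ hg)
          ext y
          rw [e', CA.CForm.Form.eichler_zero_apply]; simp
      exact this.ge (Subgroup.mem_top ⟨f, (F.symp_mem_Isom).2 hf⟩)

theorem eq_of_St {p : ℕ} [Finite H] (hp : p.Prime) (h3 : 3 ≤ p) (h0 : (p : k) = 0) (hO : pCore p H = ⊥) (hS : Sys S)
    (hH : ∀ {v φ}, S v φ → SH H v φ) (h1 : H ≤ Inv (V1 S)) (h2 : H ≤ Inv (U1 S)) {v' : V} {φ' : Dual k V}
    (a : S v φ) (a' : S v' φ') (b : v' - v ∈ U1 S) (b' : ∀ u χ, S u χ → (φ' - φ) u = 0) : v' = v ∧ φ' = φ := by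
  haveI := Fact.mk hp
  let N := (St (V1 S) (V1 S ⊓ U1 S) inf_le_left).subgroupOf H
  haveI : N.Normal := ⟨fun n hn g => by
    refine ⟨fun x => ?_, fun x hx => ?_, fun x hx => ?_⟩
    · simpa using Inv.mem (h1 g.2) (hn.1 (g.1⁻¹ x))
    · have := hn.2.1 _ (Inv.mem (inv_mem (h1 g.2)) hx)
      exact ⟨by simpa using Inv.mem (h1 g.2) this.1, by simpa using Inv.mem (h2 g.2) this.2⟩
    · have := hn.2.2 _ ⟨Inv.mem (inv_mem (h1 g.2)) hx.1, Inv.mem (inv_mem (h2 g.2)) hx.2⟩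
      simpa using congrArg g.1 this⟩
  have hN : N ≤ ⊥ := hO ▸ CA.Core.le_pCore (CA.Core.isPGroup_subgroupOf (isPGroup_St hp h3 h0 _) _)
  obtain ⟨-, -, -, g, hg, e⟩ := hH a
  obtain ⟨-, -, -, t, ht, e'⟩ := hH a'
  have c1 : ∀ x ∈ V1 S, φ' x = φ x := fun x hx => by
    have : V1 S ≤ LinearMap.ker (φ' - φ) := span_le.2 fun u ⟨χ, k⟩ => b' u χ k
    exact sub_eq_zero.1 (this hx)
  have c2 : φ v' = 0 := by simpa [hS.zero a] using b v φ a
  have e2 : ∀ x, (g * t⁻¹) x - x = φ x • v - φ' x • v' := fun x => by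
    rw [LinearEquiv.mul_apply, e'.inv (hS.zero a'), e]; simp [c2]; abel
  have m : (⟨g * t⁻¹, mul_mem hg (inv_mem ht)⟩ : H) ∈ N := by
    refine ⟨fun x => ?_, fun x hx => ⟨?_, ?_⟩, fun x hx => ?_⟩
    · exact (e2 x).symm ▸ sub_mem (smul_mem _ _ (mem_V1 a)) (smul_mem _ _ (mem_V1 a'))
    · exact (e2 x).symm ▸ sub_mem (smul_mem _ _ (mem_V1 a)) (smul_mem _ _ (mem_V1 a'))
    · change (g * t⁻¹) x - x ∈ _
      rw [e2, c1 x hx, ← smul_sub, ← neg_sub]; exact smul_mem _ _ (neg_mem b)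
    · change (g * t⁻¹) x = x
      rw [← sub_eq_zero, e2, hx.2 v φ a, hx.2 v' φ' a']; simp
  have e3 : ∀ x, φ x • v = φ' x • v' := fun x => by
    rw [← sub_eq_zero, ← e2, show g * t⁻¹ = 1 from congrArg Subtype.val (Subgroup.mem_bot.1 (hN m))]; simp
  obtain ⟨u, χ, hu, d, -⟩ := hS.ni a
  have e4 : v = v' := smul_right_injective V d (by simpa [c1 u (mem_V1 hu)] using e3 u)
  subst e4
  exact ⟨rfl, LinearMap.ext fun x => (smul_left_injective k (hS.ne1 a) (e3 x)).symm⟩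

end CA.McL
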